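import Mathlib
import Cfsg.Agent.Lib.Helper73.SY.Defs

/-!
# SY package [M1]: with a tail and at least two big orbits the even part is decomposable

Abstract core `dec_of_central_odd`: if `Q` has a central element `τ` of order two with sign `-1`
and `Q = W × R × ⟨τ⟩`, then the even part of `Q` is the internal direct product of the images of
`W` and `R` under `q ↦ q * ε q` (`ε q = 1` for `q` even, `τ` for `q` odd).
-/

set_option autoImplicit false

namespace Cfsg.Agent.Lib.Helper76.SY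

open Equiv Cfsg.Agent.Lib.Helper73.SY

section abstract

variable {G : Type} [Group G]

/-- the correction factor: `1` on even elements, `τ` on odd ones -/
noncomputable def eps (sgn : G →* ℤˣ) (τ : G) (q : G) : G :=
  if sgn q = 1 then 1 else τ

theorem eps_of_even (sgn : G →* ℤˣ) (τ q : G) (h : sgn q = 1) : eps sgn τ q = 1 := by
  rw [eps, if_pos h]

theorem eps_of_odd (sgn : G →* ℤˣ) (τ q : G) (h : sgn q ≠ 1) : eps sgn τ q = τ := by
  rw [eps, if_neg h]

theorem eps_cases (sgn : G →* ℤˣ) (τ q : G) : eps sgn τ q = 1 ∨ eps sgn τ q = τ := by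
  by_cases h : sgn q = 1
  · exact Or.inl (eps_of_even sgn τ q h)
  · exact Or.inr (eps_of_odd sgn τ q h)

theorem eps_mul (sgn : G →* ℤˣ) (τ : G) (hτ2 : τ * τ = 1) (a b : G) :
    eps sgn τ (a * b) = eps sgn τ a * eps sgn τ b := by
  rcases Int.units_eq_one_or (sgn a) with ha | ha <;>
    rcases Int.units_eq_one_or (sgn b) with hb | hb
  · rw [eps_of_even sgn τ a ha, eps_of_even sgn τ b hb,
      eps_of_even sgn τ (a * b) (by rw [map_mul, ha, hb, one_mul]), one_mul]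
  · rw [eps_of_even sgn τ a ha, eps_of_odd sgn τ b (by rw [hb]; decide),
      eps_of_odd sgn τ (a * b) (by rw [map_mul, ha, hb]; decide), one_mul]
  · rw [eps_of_odd sgn τ a (by rw [ha]; decide), eps_of_even sgn τ b hb,
      eps_of_odd sgn τ (a * b) (by rw [map_mul, ha, hb]; decide), mul_one]
  · rw [eps_of_odd sgn τ a (by rw [ha]; decide), eps_of_odd sgn τ b (by rw [hb]; decide),
      eps_of_even sgn τ (a * b) (by rw [map_mul, ha, hb]; decide), hτ2]

theorem sgn_mul_eps (sgn : G →* ℤˣ) (τ : G) (hτs : sgn τ = -1) (q : G) :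
    sgn (q * eps sgn τ q) = 1 := by
  rcases Int.units_eq_one_or (sgn q) with h | h
  · rw [eps_of_even sgn τ q h, mul_one, h]
  · rw [eps_of_odd sgn τ q (by rw [h]; decide), map_mul, h, hτs]
    decide

/-- the homomorphism `q ↦ q * ε q` on `Q` -/
noncomputable def thetaHom (Q : Subgroup G) (sgn : G →* ℤˣ) (τ : G) (hτ2 : τ * τ = 1)
    (hτc : ∀ q ∈ Q, τ * q = q * τ) : ↥Q →* G where
  toFun q := (q : G) * eps sgn τ q
  map_one' := by
    show ((1 : ↥Q) : G) * eps sgn τ ((1 : ↥Q) : G) = 1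
    rw [Subgroup.coe_one, eps_of_even sgn τ 1 (map_one sgn), mul_one]
  map_mul' a b := by
    show ((a * b : ↥Q) : G) * eps sgn τ ((a * b : ↥Q) : G) =
      (a : G) * eps sgn τ a * ((b : G) * eps sgn τ b)
    rw [Subgroup.coe_mul, eps_mul sgn τ hτ2]
    have hc : eps sgn τ (a : G) * (b : G) = (b : G) * eps sgn τ (a : G) := by
      rcases eps_cases sgn τ (a : G) with h | h
      · rw [h, one_mul, mul_one]
      · rw [h]
        exact hτc b b.2
    calc (a : G) * (b : G) * (eps sgn τ a * eps sgn τ b)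
        = (a : G) * ((b : G) * eps sgn τ a) * eps sgn τ b := by group
      _ = (a : G) * (eps sgn τ a * (b : G)) * eps sgn τ b := by rw [hc]
      _ = (a : G) * eps sgn τ a * ((b : G) * eps sgn τ b) := by group

theorem thetaHom_apply (Q : Subgroup G) (sgn : G →* ℤˣ) (τ : G) (hτ2 : τ * τ = 1)
    (hτc : ∀ q ∈ Q, τ * q = q * τ) (q : ↥Q) :
    thetaHom Q sgn τ hτ2 hτc q = (q : G) * eps sgn τ q := rfl

/-- the kernel of `θ` lies in `{1, τ}` -/
theorem thetaHom_eq_one (Q : Subgroup G) (sgn : G →* ℤˣ) (τ : G) (hτ2 : τ * τ = 1)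
    (hτc : ∀ q ∈ Q, τ * q = q * τ) (q : ↥Q) (h : thetaHom Q sgn τ hτ2 hτc q = 1) :
    (q : G) = 1 ∨ (q : G) = τ := by
  rw [thetaHom_apply] at h
  rcases eps_cases sgn τ (q : G) with h1 | h1
  · rw [h1, mul_one] at h
    exact Or.inl h
  · rw [h1] at h
    right
    calc (q : G) = (q : G) * (τ * τ) := by rw [hτ2, mul_one]
      _ = (q : G) * τ * τ := by group
      _ = τ := by rw [h, one_mul]

/-- **Abstract core of [M1].** -/
theorem dec_of_central_odd (Q : Subgroup G) (sgn : G →* ℤˣ) (τ : G)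
    (hτQ : τ ∈ Q) (hτs : sgn τ = -1) (hτ2 : τ * τ = 1) (hτc : ∀ q ∈ Q, τ * q = q * τ)
    (W R : Subgroup G) (hWQ : W ≤ Q) (hRQ : R ≤ Q)
    (hcomm : ∀ w ∈ W, ∀ r ∈ R, w * r = r * w)
    (hdec : ∀ q ∈ Q, ∃ w ∈ W, ∃ r ∈ R, q = w * r ∨ q = w * r * τ)
    (hind : ∀ w ∈ W, ∀ r ∈ R, (w * r = 1 ∨ w * r = τ) → w = 1 ∧ r = 1)
    (hW : W ≠ ⊥) (hR : R ≠ ⊥) :
    Dec (Q ⊓ sgn.ker) := by
  set θ := thetaHom Q sgn τ hτ2 hτc with hθ
  have hθQ : ∀ q : ↥Q, θ q ∈ Q ⊓ sgn.ker := by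
    intro q
    refine ⟨?_, MonoidHom.mem_ker.2 ?_⟩
    · rw [hθ, thetaHom_apply]
      rcases eps_cases sgn τ (q : G) with h | h
      · rw [h, mul_one]
        exact q.2
      · rw [h]
        exact Q.mul_mem q.2 hτQ
    · rw [hθ, thetaHom_apply]
      exact sgn_mul_eps sgn τ hτs q
  have hmemW : ∀ w ∈ W, ∃ w' : ↥Q, (w' : G) = w ∧ w' ∈ W.subgroupOf Q := fun w hw =>
    ⟨⟨w, hWQ hw⟩, rfl, by rw [Subgroup.mem_subgroupOf]; exact hw⟩
  have hmemR : ∀ r ∈ R, ∃ r' : ↥Q, (r' : G) = r ∧ r' ∈ R.subgroupOf Q := fun r hr =>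
    ⟨⟨r, hRQ hr⟩, rfl, by rw [Subgroup.mem_subgroupOf]; exact hr⟩
  refine ⟨(W.subgroupOf Q).map θ, (R.subgroupOf Q).map θ, ?_, ?_, ?_, ?_, ?_, ?_, ?_⟩
  · -- S₁ ≠ ⊥
    intro hbot
    obtain ⟨⟨w, hw⟩, hne⟩ := (Subgroup.ne_bot_iff_exists_ne_one).1 hW
    have hw1 : w ≠ 1 := fun h => hne (Subtype.ext h)
    obtain ⟨w', hw', hw'W⟩ := hmemW w hw
    have h1 : θ w' ∈ (W.subgroupOf Q).map θ := ⟨w', hw'W, rfl⟩
    rw [hbot, Subgroup.mem_bot] at h1
    have h2 := thetaHom_eq_one Q sgn τ hτ2 hτc w' h1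
    rw [hw'] at h2
    exact hw1 (hind w hw 1 R.one_mem (by rw [mul_one]; exact h2)).1
  · -- S₂ ≠ ⊥
    intro hbot
    obtain ⟨⟨r, hr⟩, hne⟩ := (Subgroup.ne_bot_iff_exists_ne_one).1 hR
    have hr1 : r ≠ 1 := fun h => hne (Subtype.ext h)
    obtain ⟨r', hr', hr'R⟩ := hmemR r hr
    have h1 : θ r' ∈ (R.subgroupOf Q).map θ := ⟨r', hr'R, rfl⟩
    rw [hbot, Subgroup.mem_bot] at h1
    have h2 := thetaHom_eq_one Q sgn τ hτ2 hτc r' h1
    rw [hr'] at h2
    exact hr1 (hind 1 W.one_mem r hr (by rw [one_mul]; exact h2)).2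
  · rintro p ⟨q, -, rfl⟩
    exact hθQ q
  · rintro p ⟨q, -, rfl⟩
    exact hθQ q
  · rintro a ⟨w', hw0, rfl⟩ b ⟨r', hr0, rfl⟩
    have hw' : (w' : G) ∈ W := Subgroup.mem_subgroupOf.1 hw0
    have hr' : (r' : G) ∈ R := Subgroup.mem_subgroupOf.1 hr0
    have h1 : w' * r' = r' * w' := Subtype.ext (hcomm _ hw' _ hr')
    rw [← map_mul, ← map_mul, h1]
  · -- S₁ ⊓ S₂ = ⊥
    rw [eq_bot_iff]
    rintro p ⟨⟨w', hw0, hpw⟩, ⟨r', hr0, hpr⟩⟩
    have hw' : (w' : G) ∈ W := Subgroup.mem_subgroupOf.1 hw0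
    have hr' : (r' : G) ∈ R := Subgroup.mem_subgroupOf.1 hr0
    have hpw' : θ w' = p := hpw
    have hpr' : θ r' = p := hpr
    have h1 : θ (w' * r'⁻¹) = 1 := by
      rw [map_mul, map_inv, hpw', hpr', mul_inv_cancel]
    have h2 := thetaHom_eq_one Q sgn τ hτ2 hτc (w' * r'⁻¹) h1
    have h3 : ((w' * r'⁻¹ : ↥Q) : G) = (w' : G) * (r' : G)⁻¹ := rfl
    rw [h3] at h2
    have h4 := (hind _ hw' _ (R.inv_mem hr') h2).1
    have h5 : w' = 1 := Subtype.ext h4
    rw [Subgroup.mem_bot, ← hpw', h5, map_one]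
  · -- S₁ ⊔ S₂ = Q ⊓ ker
    apply le_antisymm
    · apply sup_le
      · rintro p ⟨q, -, rfl⟩
        exact hθQ q
      · rintro p ⟨q, -, rfl⟩
        exact hθQ q
    · rintro p ⟨hpQ, hpk0⟩
      have hpk : sgn p = 1 := MonoidHom.mem_ker.1 hpk0
      obtain ⟨w, hw, r, hr, hp⟩ := hdec p hpQ
      obtain ⟨w', hw', hw'W⟩ := hmemW w hw
      obtain ⟨r', hr', hr'R⟩ := hmemR r hr
      have hkey : p = θ w' * θ r' := by
        rw [← map_mul, hθ, thetaHom_apply]
        have h3 : ((w' * r' : ↥Q) : G) = w * r := by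
          rw [Subgroup.coe_mul, hw', hr']
        rw [h3]
        rcases hp with hp | hp
        · rw [eps_of_even sgn τ (w * r) (by rw [← hp]; exact hpk), mul_one]
          exact hp
        · have h4 : sgn (w * r) ≠ 1 := by
            intro h5
            rw [hp, map_mul, h5, hτs] at hpk
            exact absurd hpk (by decide)
          rw [eps_of_odd sgn τ (w * r) h4]
          exact hp
      rw [hkey]
      exact Subgroup.mul_mem_sup ⟨w', hw'W, rfl⟩ ⟨r', hr'R, rfl⟩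

end abstract

theorem inv_apply_self' {α : Type} (f : Perm α) (x : α) : f⁻¹ (f x) = x := by simp

/-- Package [M1] of the SY project. -/
theorem lemDecTail : LemDecTail := by
  intro α _ _ Q 𝒪 T hS hT0 h𝒪
  obtain ⟨hQ2, hdisj, hdisjT, hfix, hpres, hrestr, hbig, hT⟩ := hS
  rcases hT with hT | ⟨u, v, huv, rfl, hτQ⟩
  · exact absurd hT hT0
  obtain ⟨O₁, hO₁, O₂, hO₂, hne⟩ := Finset.one_lt_card.1 (show 1 < 𝒪.card by omega)
  have hOu : ∀ O ∈ 𝒪, ∀ x ∈ O, x ≠ u ∧ x ≠ v := by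
    intro O hO x hx
    have h1 := Finset.disjoint_left.1 (hdisjT O hO) hx
    constructor
    · rintro rfl
      exact h1 (by simp)
    · rintro rfl
      exact h1 (by simp)
  -- `Q` preserves the tail
  have hTpres : ∀ q ∈ Q, ∀ x, (x = u ∨ x = v) → (q x = u ∨ q x = v) := by
    intro q hq x hx
    by_contra hcon
    have hqT : q x ∉ ({u, v} : Finset α) := by
      simpa using hcon
    by_cases hex : ∃ O ∈ 𝒪, q x ∈ O
    · obtain ⟨O, hO, hqx⟩ := hex
      have h1 := hpres q⁻¹ (Q.inv_mem hq) O hO (q x) hqx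
      rw [inv_apply_self'] at h1
      rcases hx with rfl | rfl
      · exact (hOu O hO x h1).1 rfl
      · exact (hOu O hO x h1).2 rfl
    · have h1 := hfix q⁻¹ (Q.inv_mem hq) (q x) hqT (fun O hO h => hex ⟨O, hO, h⟩)
      rw [inv_apply_self'] at h1
      rw [← h1] at hcon
      exact hcon hx
  have hT2 : ∀ q ∈ Q, (q u = u ∧ q v = v) ∨ (q u = v ∧ q v = u) := by
    intro q hq
    have h1 := hTpres q hq u (Or.inl rfl)
    have h2 := hTpres q hq v (Or.inr rfl)
    have h3 : q u ≠ q v := q.injective.ne huv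
    rcases h1 with h1 | h1 <;> rcases h2 with h2 | h2
    · exact absurd (h1.trans h2.symm) h3
    · exact Or.inl ⟨h1, h2⟩
    · exact Or.inr ⟨h1, h2⟩
    · exact absurd (h1.trans h2.symm) h3
  have hτc : ∀ q ∈ Q, swap u v * q = q * swap u v := by
    intro q hq
    have h1 := swap_apply_apply q u v
    have h2 : swap (q u) (q v) = swap u v := by
      rcases hT2 q hq with ⟨h3, h4⟩ | ⟨h3, h4⟩
      · rw [h3, h4]
      · rw [h3, h4, swap_comm]
    rw [h2] at h1
    have h3 : swap u v * q = q * swap u v * q⁻¹ * q := congrArg (· * q) h1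
    rw [h3]
    group
  let W : Subgroup (Perm α) :=
    { carrier := {g | g ∈ Q ∧ ∀ x, x ∉ O₁ → g x = x}
      mul_mem' := fun {a b} ha hb => ⟨Q.mul_mem ha.1 hb.1, fun x hx => by
        show a (b x) = x
        rw [hb.2 x hx, ha.2 x hx]⟩
      one_mem' := ⟨Q.one_mem, fun x _ => rfl⟩
      inv_mem' := fun {a} ha => ⟨Q.inv_mem ha.1, fun x hx => by
        rw [Perm.inv_eq_iff_eq]
        exact (ha.2 x hx).symm⟩ }
  let R : Subgroup (Perm α) :=
    { carrier := {g | g ∈ Q ∧ ∀ x, (x ∈ O₁ ∨ x = u ∨ x = v) → g x = x}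
      mul_mem' := fun {a b} ha hb => ⟨Q.mul_mem ha.1 hb.1, fun x hx => by
        show a (b x) = x
        rw [hb.2 x hx, ha.2 x hx]⟩
      one_mem' := ⟨Q.one_mem, fun x _ => rfl⟩
      inv_mem' := fun {a} ha => ⟨Q.inv_mem ha.1, fun x hx => by
        rw [Perm.inv_eq_iff_eq]
        exact (ha.2 x hx).symm⟩ }
  have hWmem : ∀ g, g ∈ W ↔ g ∈ Q ∧ ∀ x, x ∉ O₁ → g x = x := fun g => Iff.rfl
  have hRmem : ∀ g, g ∈ R ↔ g ∈ Q ∧ ∀ x, (x ∈ O₁ ∨ x = u ∨ x = v) → g x = x :=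
    fun g => Iff.rfl
  have hcomm : ∀ w ∈ W, ∀ r ∈ R, w * r = r * w := by
    intro w hw r hr
    obtain ⟨hwQ, hw⟩ := (hWmem w).1 hw
    obtain ⟨hrQ, hr⟩ := (hRmem r).1 hr
    ext x
    show w (r x) = r (w x)
    by_cases hx : x ∈ O₁
    · rw [hr x (Or.inl hx), hr (w x) (Or.inl (hpres w hwQ O₁ hO₁ x hx))]
    · have hrx : r x ∉ O₁ := by
        intro h
        have h1 := hr (r x) (Or.inl h)
        have h2 : r x = x := r.injective h1
        rw [h2] at h
        exact hx h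
      rw [hw x hx, hw (r x) hrx]
  have hdec : ∀ q ∈ Q, ∃ w ∈ W, ∃ r ∈ R, q = w * r ∨ q = w * r * swap u v := by
    intro q hq
    obtain ⟨w, hwQ, hw1, hw2⟩ := hrestr q hq O₁ hO₁
    have hsQ : w⁻¹ * q ∈ Q := Q.mul_mem (Q.inv_mem hwQ) hq
    have hs1 : ∀ x ∈ O₁, (w⁻¹ * q) x = x := by
      intro x hx
      show w⁻¹ (q x) = x
      rw [← hw1 x hx, inv_apply_self']
    refine ⟨w, (hWmem w).2 ⟨hwQ, hw2⟩, ?_⟩
    rcases hT2 _ hsQ with ⟨h3, h4⟩ | ⟨h3, h4⟩
    · refine ⟨w⁻¹ * q, (hRmem _).2 ⟨hsQ, ?_⟩, Or.inl (by group)⟩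
      rintro x (hx | rfl | rfl)
      · exact hs1 x hx
      · exact h3
      · exact h4
    · refine ⟨w⁻¹ * q * swap u v, (hRmem _).2 ⟨Q.mul_mem hsQ hτQ, ?_⟩, Or.inr ?_⟩
      · rintro x (hx | rfl | rfl)
        · show (w⁻¹ * q) (swap u v x) = x
          rw [swap_apply_of_ne_of_ne (hOu O₁ hO₁ x hx).1 (hOu O₁ hO₁ x hx).2]
          exact hs1 x hx
        · show (w⁻¹ * q) (swap x v x) = x
          rw [swap_apply_left]
          exact h4
        · show (w⁻¹ * q) (swap u x x) = x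
          rw [swap_apply_right]
          exact h3
      · have h5 : swap u v * swap u v = 1 := swap_mul_self u v
        calc q = q * (swap u v * swap u v) := by rw [h5, mul_one]
          _ = w * (w⁻¹ * q * swap u v) * swap u v := by group
  have hind : ∀ w ∈ W, ∀ r ∈ R, (w * r = 1 ∨ w * r = swap u v) → w = 1 ∧ r = 1 := by
    intro w hw r hr h
    obtain ⟨hwQ, hw⟩ := (hWmem w).1 hw
    obtain ⟨hrQ, hr⟩ := (hRmem r).1 hr
    have huO : u ∉ O₁ := fun h => (hOu O₁ hO₁ u h).1 rfl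
    rcases h with h | h
    · have hw1 : w = 1 := by
        ext x
        by_cases hx : x ∈ O₁
        · have h1 : (w * r) x = x := by rw [h]; rfl
          have h2 : (w * r) x = w x := by
            show w (r x) = w x
            rw [hr x (Or.inl hx)]
          rw [← h2, h1]
          rfl
        · rw [hw x hx]
          rfl
      refine ⟨hw1, ?_⟩
      rw [hw1, one_mul] at h
      exact h
    · exfalso
      have h1 : (w * r) u = u := by
        show w (r u) = u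
        rw [hr u (Or.inr (Or.inl rfl)), hw u huO]
      rw [h, swap_apply_left] at h1
      exact huv h1.symm
  have hW : W ≠ ⊥ := by
    obtain ⟨-, -, a, ha, b, hb, hab, hsw⟩ := hbig O₁ hO₁
    intro hbot
    have h1 : swap a b ∈ W := (hWmem _).2 ⟨hsw, fun x hx =>
      swap_apply_of_ne_of_ne (fun h => hx (h ▸ ha)) (fun h => hx (h ▸ hb))⟩
    rw [hbot, Subgroup.mem_bot] at h1
    exact hab (swap_eq_one_iff.1 h1)
  have hR : R ≠ ⊥ := by
    obtain ⟨-, -, a, ha, b, hb, hab, hsw⟩ := hbig O₂ hO₂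
    have hd := hdisj O₁ hO₁ O₂ hO₂ hne
    intro hbot
    have h1 : swap a b ∈ R := (hRmem _).2 ⟨hsw, fun x hx => by
      apply swap_apply_of_ne_of_ne
      · rintro rfl
        rcases hx with hx | hx | hx
        · exact Finset.disjoint_left.1 hd hx ha
        · exact (hOu O₂ hO₂ x ha).1 hx
        · exact (hOu O₂ hO₂ x ha).2 hx
      · rintro rfl
        rcases hx with hx | hx | hx
        · exact Finset.disjoint_left.1 hd hx hb
        · exact (hOu O₂ hO₂ x hb).1 hx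
        · exact (hOu O₂ hO₂ x hb).2 hx⟩
    rw [hbot, Subgroup.mem_bot] at h1
    exact hab (swap_eq_one_iff.1 h1)
  exact dec_of_central_odd Q Perm.sign (swap u v) hτQ (Perm.sign_swap huv) (swap_mul_self u v)
    hτc W R (fun g hg => ((hWmem g).1 hg).1) (fun g hg => ((hRmem g).1 hg).1) hcomm hdec hind
    hW hR

end Cfsg.Agent.Lib.Helper76.SY
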