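import Mathlib
import Cfsg.Agent.Lib.Helper73.SY.Defs

/-!
# SY package [ST2]: a maximal 2-subgroup of `Perm α` contains a full cycle and a transposition on
each of its orbits with at least two points

Reusable: `exists_conj_mem_of_max` (a `p`-subgroup that is maximal among `p`-subgroups contains a
conjugate of every element of `p`-power order), `formPerm_fullCycle`, `card_orbit_two_pow`.
-/

set_option autoImplicit false

namespace Cfsg.Agent.Lib.Helper76.SY

open Equiv Cfsg.Agent.Lib.Helper73.SY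

/-- a `p`-subgroup that is maximal among the `p`-subgroups contains a conjugate of every element
of `p`-power order -/
theorem exists_conj_mem_of_max {H : Type*} [Group H] [Finite H] {p : ℕ} [Fact p.Prime]
    (W : Subgroup H) (hW : IsPGroup p W)
    (hmax : ∀ R : Subgroup H, IsPGroup p R → W ≤ R → R = W) (g : H)
    (hg : ∃ k, orderOf g = p ^ k) : ∃ f : H, f * g * f⁻¹ ∈ W := by
  obtain ⟨k, hk⟩ := hg
  let Wsyl : Sylow p H := ⟨W, hW, fun {R} hR hle => hmax R hR hle⟩
  have hz : IsPGroup p (Subgroup.zpowers g) :=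
    IsPGroup.of_card (n := k) (by rw [Nat.card_zpowers, hk])
  obtain ⟨P', hP'⟩ := hz.exists_le_sylow
  obtain ⟨f, hf⟩ := MulAction.exists_smul_eq H P' Wsyl
  refine ⟨f, ?_⟩
  have hgP : g ∈ (P' : Subgroup H) := hP' (Subgroup.mem_zpowers g)
  have h1 : f * g * f⁻¹ ∈ ((f • P' : Sylow p H) : Subgroup H) := by
    rw [Sylow.coe_subgroup_smul, Subgroup.mem_smul_pointwise_iff_exists]
    exact ⟨g, hgP, by simp [MulAut.smul_def]⟩
  rw [hf] at h1
  exact h1

/-- the cycle through the points of a finset -/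
theorem formPerm_fullCycle {α : Type} [Fintype α] [DecidableEq α] (O : Finset α)
    (hO : 2 ≤ O.card) :
    FullCycle O.toList.formPerm O ∧ orderOf O.toList.formPerm = O.card := by
  have hl : O.toList.Nodup := Finset.nodup_toList O
  have hlen : O.toList.length = O.card := Finset.length_toList O
  refine ⟨⟨fun x hx => List.formPerm_apply_of_notMem (by simpa using hx), ?_⟩, ?_⟩
  · intro x hx y hy
    obtain ⟨i, hi, rfl⟩ := List.getElem_of_mem (Finset.mem_toList.2 hx)
    obtain ⟨j, hj, rfl⟩ := List.getElem_of_mem (Finset.mem_toList.2 hy)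
    refine ⟨j + (O.toList.length - i), ?_⟩
    rw [List.formPerm_pow_apply_getElem _ hl]
    congr 1
    have e : i + (j + (O.toList.length - i)) = j + O.toList.length := by omega
    rw [e, Nat.add_mod_right, Nat.mod_eq_of_lt hj]
  · have hcyc : (O.toList.formPerm).IsCycle := List.isCycle_formPerm hl (by omega)
    rw [hcyc.orderOf, List.support_formPerm_of_nodup _ hl, Finset.toList_toFinset]
    intro x hx
    have h1 := congrArg List.length hx
    rw [hlen] at h1
    simp at h1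
    omega

/-- an orbit of a 2-group has 2-power size -/
theorem card_orbit_two_pow {α : Type} [Fintype α] [DecidableEq α] (Q : Subgroup (Perm α))
    (O : Finset α) (hQ : IsPGroup 2 ↥Q) (x₀ : α) (hx₀ : x₀ ∈ O)
    (hinv : ∀ q ∈ Q, ∀ x ∈ O, q x ∈ O) (htr : ∀ x ∈ O, ∀ y ∈ O, ∃ q ∈ Q, q x = y) :
    ∃ k, O.card = 2 ^ k := by
  have horb : MulAction.orbit ↥Q x₀ = (↑O : Set α) := by
    ext y
    constructor
    · rintro ⟨q, rfl⟩
      exact hinv q.1 q.2 x₀ hx₀
    · intro hy
      obtain ⟨q, hq, rfl⟩ := htr x₀ hx₀ y hy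
      exact ⟨⟨q, hq⟩, rfl⟩
  obtain ⟨n, hn⟩ := hQ.card_orbit x₀
  refine ⟨n, ?_⟩
  rw [← hn, horb]
  simp

/-- Package [ST2] of the SY project. -/
theorem lemOrbCyc_of (hP : LemPartSyl) : LemOrbCyc := by
  intro α _ _ Q O hQ hO2 hinv htr
  have hFmem : ∀ g : Perm α, g ∈ fixingSubgroup (Perm α) ((↑O : Set α)ᶜ) ↔
      ∀ x, x ∉ O → g x = x := by
    intro g
    rw [mem_fixingSubgroup_iff]
    constructor
    · intro h x hx
      exact h x (by simpa using hx)
    · intro h x hx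
      exact h x (by simpa using hx)
  have hFO : ∀ g ∈ fixingSubgroup (Perm α) ((↑O : Set α)ᶜ), ∀ x ∈ O, g x ∈ O := by
    intro g hg x hx
    by_contra hgx
    have h1 := (hFmem g).1 hg (g x) hgx
    have h2 : g x = x := g.injective h1
    rw [h2] at hgx
    exact hgx hx
  have key : ∀ g ∈ fixingSubgroup (Perm α) ((↑O : Set α)ᶜ), (∃ k, orderOf g = 2 ^ k) →
      ∃ f ∈ fixingSubgroup (Perm α) ((↑O : Set α)ᶜ), f * g * f⁻¹ ∈ Q := by
    intro g hg hk
    have hWp : IsPGroup 2 ((part Q O).subgroupOf (fixingSubgroup (Perm α) ((↑O : Set α)ᶜ))) :=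
      (hQ.1.to_le inf_le_left).comap_subtype
    have hmax : ∀ R' : Subgroup ↥(fixingSubgroup (Perm α) ((↑O : Set α)ᶜ)), IsPGroup 2 R' →
        (part Q O).subgroupOf (fixingSubgroup (Perm α) ((↑O : Set α)ᶜ)) ≤ R' →
        R' = (part Q O).subgroupOf (fixingSubgroup (Perm α) ((↑O : Set α)ᶜ)) := by
      intro R' hR' hle
      have h1 : R'.map (fixingSubgroup (Perm α) ((↑O : Set α)ᶜ)).subtype = part Q O := by
        apply hP α Q O hQ hinv (R'.map (fixingSubgroup (Perm α) ((↑O : Set α)ᶜ)).subtype)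
          (hR'.map _)
        · rintro r ⟨f, hf, rfl⟩ x hx
          exact (hFmem _).1 f.2 x hx
        · intro w hw
          have hwF : w ∈ fixingSubgroup (Perm α) ((↑O : Set α)ᶜ) := hw.2
          exact ⟨⟨w, hwF⟩, hle (by rw [Subgroup.mem_subgroupOf]; exact hw), rfl⟩
      rw [← Subgroup.comap_map_eq_self_of_injective
        (fixingSubgroup (Perm α) ((↑O : Set α)ᶜ)).subtype_injective R', h1]
      rfl
    obtain ⟨k, hk⟩ := hk
    obtain ⟨f, hf⟩ := exists_conj_mem_of_max
      ((part Q O).subgroupOf (fixingSubgroup (Perm α) ((↑O : Set α)ᶜ))) hWp hmax ⟨g, hg⟩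
      ⟨k, by rw [← hk]; exact Subgroup.orderOf_mk g hg⟩
    refine ⟨f.1, f.2, ?_⟩
    rw [Subgroup.mem_subgroupOf] at hf
    exact hf.1
  obtain ⟨x₀, hx₀⟩ : O.Nonempty := Finset.card_pos.1 (by omega)
  obtain ⟨k, hk⟩ := card_orbit_two_pow Q O hQ.1 x₀ hx₀ hinv htr
  obtain ⟨hc₀, hc₀o⟩ := formPerm_fullCycle O hO2
  constructor
  · obtain ⟨f, hfF, hfQ⟩ := key O.toList.formPerm ((hFmem _).2 hc₀.1) ⟨k, by rw [hc₀o, hk]⟩
    have hfi : f⁻¹ ∈ fixingSubgroup (Perm α) ((↑O : Set α)ᶜ) := inv_mem hfF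
    refine ⟨f * O.toList.formPerm * f⁻¹, hfQ, ?_, ?_⟩
    · intro x hx
      show f (O.toList.formPerm (f⁻¹ x)) = x
      rw [(hFmem _).1 hfi x hx, hc₀.1 x hx, (hFmem _).1 hfF x hx]
    · intro x hx y hy
      obtain ⟨n, hn⟩ := hc₀.2 (f⁻¹ x) (hFO _ hfi x hx) (f⁻¹ y) (hFO _ hfi y hy)
      refine ⟨n, ?_⟩
      rw [conj_pow]
      show f ((O.toList.formPerm ^ n) (f⁻¹ x)) = y
      rw [hn]
      simp
  · obtain ⟨a, ha, b, hb, hab⟩ := Finset.one_lt_card.1 (show 1 < O.card by omega)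
    have hsF : swap a b ∈ fixingSubgroup (Perm α) ((↑O : Set α)ᶜ) := by
      rw [hFmem]
      intro x hx
      exact swap_apply_of_ne_of_ne (fun h => hx (h ▸ ha)) (fun h => hx (h ▸ hb))
    have hso : orderOf (swap a b) = 2 ^ 1 := by
      rw [pow_one]
      exact orderOf_eq_prime (by rw [pow_two]; exact swap_mul_self a b)
        (fun h => hab (swap_eq_one_iff.1 h))
    obtain ⟨f, hfF, hfQ⟩ := key (swap a b) hsF ⟨1, hso⟩
    refine ⟨f a, hFO f hfF a ha, f b, hFO f hfF b hb, f.injective.ne hab, ?_⟩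
    rw [swap_apply_apply]
    exact hfQ

end Cfsg.Agent.Lib.Helper76.SY
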